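import Cfsg.Agent.H755.PQ.TorDualT

/-!
# S4612: tori, pairs of different orders, the tables (helper755)

* `Kill`: `pairs_E6`, `pairs_E7`, `pairs_E8`, `pairs_2E6`;
* `KillTwo`: `two_F4`, `two_E6`, `two_E8`, `two_2E6`, `two_E7`, and `two_E6_two`, `two_E8_four` (all primes but one);
* small primes: `small_G2`, `small_F4`, `small_E6`, `small_E8_6`, `small_E8_10`, `small_E8_20`.
-/

set_option autoImplicit false
set_option linter.unusedSectionVars false
set_option linter.unusedVariables false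

namespace Cfsg.Agent.H755.PQ

open CoxeterSystem Cfsg Cfsg.Lie Cfsg.Lie.ChevalleyDatum
open Cfsg.Agent.ChevalleyStructure Cfsg.Agent.ChevalleyStructure.Elts Cfsg.Agent.ChevalleyStructure.CoxeterGeom
  Cfsg.Agent.ChevalleyStructure.CoxeterGeomTypes Cfsg.Agent.ChevalleyStructure.NPerm
open Cfsg.Agent.Tits.Roots Cfsg.Agent.Tits.Core Cfsg.Agent.Nodes Cfsg.Agent.Nodes.Reps Cfsg.Agent.Nodes.BNOf
  Cfsg.Agent.Nodes.RGDChev Cfsg.Agent.Nodes.Bruhat Cfsg.Agent.Nodes.SubComb Cfsg.Agent.Nodes.Coroot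
open Cfsg.Agent.KFacts.RgdField Cfsg.Agent.KFacts.RgdChevCoord Cfsg.Agent.BpExc.TorCent Cfsg.Agent.BpExc.TorChev
open Cfsg.Agent.GpExc.Field Cfsg.Agent.BpExc.Tow Cfsg.Agent.BpExc.TowChev Cfsg.Agent.BpExc.Fr
  Cfsg.Agent.BpExc.LangFr Cfsg.Agent.LangThm Cfsg.Agent.BpExc Cfsg.Agent.H129.TorusChar Cfsg.Agent.H129.TorusMain
open Cfsg.Agent.H129.TorAct (cX_tau tau_mem exists_theta)
open Cfsg.Agent.H129.TorusUntw (phi phi_emb coe_phi isFrob_phi fr_phi)
open Cfsg.Agent.H630.NH Cfsg.Agent.H630.Exc Cfsg.Agent.H317.PQ Cfsg.Agent.H990.PQ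
open Cfsg.Agent.H130.WeylCk Cfsg.Agent.H130.PolyL Cfsg.Agent.H130.WeylTab

universe u v

section Gen

variable {D : ChevalleyDatum} {l : ℕ} {M : CoxeterMatrix (Fin l)} (hp : IsType D l M)
  {W : Type*} [Group W] (cs : CoxeterSystem M W)

variable {k : Type u} [Field k] {p e : ℕ} [hpF : Fact p.Prime] [CharP k p] {σ : MulAut ↥(D.group k)}
  {g : (Fin l → ℤ) ≃+ (Fin l → ℤ)}
  {X : Type v} [Group X] {e0 : X →* ↥(D.group k)} {d : ℕ} {S : Setup hp cs p e σ g e0 d}
  {ε : ℤ} {R : Module.End ℤ (Fin l → ℤ)} {T : Subgroup X}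

open Polynomial in
/-- **A prime dividing the index `d`**: powers of elements of order `s ^ v`. -/
theorem IsTor.dvd_card_exp (h : IsTor hp cs S ε R T) [IsAlgClosed k] [Finite W] [Finite X]
    (hε : ε = 1 ∨ ε = -1) {s : ℕ} (hs : s.Prime) (hsp : s ≠ p) {Q : ℤ} (hQ : Q = ε * (p ^ e : ℕ)) {b : ℕ}
    (hfix : ∀ y, σ y = y → y ^ b ∈ e0.range) {P : ℤ[X]} (hPm : P.Monic) (hPd : 0 < P.natDegree)
    (x0 : Fin l → ℤ) (y : (Fin l → ℤ) →ₗ[ℤ] ℤ) (hy0 : ∀ z, y (aeval R P z) = 0)
    (hy : ∀ j < P.natDegree, y ((R ^ j) x0) = if j + 1 = P.natDegree then 1 else 0)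
    {v : ℕ} (hv : ((s ^ v : ℕ) : ℤ) ∣ P.eval Q) (hb : ¬ s ^ v ∣ b) : s ∣ Nat.card T := by
  have : Fact s.Prime := ⟨hs⟩
  obtain ⟨w, n', z, hw, hn', hz, rfl⟩ := h
  obtain ⟨m, hm⟩ : ∃ m, m = s ^ v := ⟨_, rfl⟩
  rw [← hm] at hv hb
  have hpp : p.Prime := Fact.out
  have hsk : (s : k) ≠ 0 := by
    rw [Ne, CharP.cast_eq_zero_iff k p]
    intro h
    exact hsp ((Nat.prime_dvd_prime_iff_eq hpp hs).1 h).symm
  have hmk : (m : k) ≠ 0 := by rw [hm, Nat.cast_pow]; exact pow_ne_zero _ hsk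
  obtain ⟨B, d', hd', hB⟩ := S.inv
  obtain ⟨ζ, hζ, hz0, hchar⟩ := exists_charL hp hB hd' (θ := theta hp cs w g) (q := p ^ e) hmk
  obtain ⟨t, ht, h1, h2, h3⟩ := hchar ((y.comp (aeval R (P /ₘ (Polynomial.X - C Q)))).toAddMonoidHom) (fun b' => by
    have h1 : (y.comp (aeval R (P /ₘ (Polynomial.X - C Q)))).toAddMonoidHom (theta hp cs w g b') -
        ((p ^ e : ℕ) : ℤ) * (y.comp (aeval R (P /ₘ (Polynomial.X - C Q)))).toAddMonoidHom b' =
        ε * (y (aeval R (P /ₘ (Polynomial.X - C Q)) (R b')) - Q * y (aeval R (P /ₘ (Polynomial.X - C Q)) b')) := by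
      have h2 : ε * ε = 1 := by rcases hε with rfl | rfl <;> norm_num
      have h3 : (y.comp (aeval R (P /ₘ (Polynomial.X - C Q)))).toAddMonoidHom (theta hp cs w g b') =
          ε * y (aeval R (P /ₘ (Polynomial.X - C Q)) (R b')) := by
        rw [hw, map_zsmul, smul_eq_mul]
        rfl
      rw [h3, hQ]
      have h4 : (y.comp (aeval R (P /ₘ (Polynomial.X - C (ε * ((p ^ e : ℕ) : ℤ)))))).toAddMonoidHom b' =
        y (aeval R (P /ₘ (Polynomial.X - C (ε * ((p ^ e : ℕ) : ℤ)))) b') := rfl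
      rw [h4]
      linear_combination (((p ^ e : ℕ) : ℤ) * y (aeval R (P /ₘ (Polynomial.X - C (ε * ((p ^ e : ℕ) : ℤ)))) b')) * h2
    rw [h1]
    exact (dual_eig hv y hy0 b').mul_left _)
  have hL : (y.comp (aeval R (P /ₘ (Polynomial.X - C Q)))).toAddMonoidHom x0 = 1 :=
    H130.Cok.functional hPm hPd Q y x0 _ hy
  have hFt := (tau_iff hp cs S.lf S.frob S.fr hn' ht).2 h1
  have h4 : σ (z * t * z⁻¹) = z * t * z⁻¹ := by
    have h2 : σ z = z * n' := by rw [hz]; group
    rw [map_mul, map_mul, map_inv, h2]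
    calc z * n' * σ t * (z * n')⁻¹ = z * (n' * σ t * n'⁻¹) * z⁻¹ := by group
      _ = z * t * z⁻¹ := by rw [hFt]
  obtain ⟨x, hx⟩ := hfix _ h4
  have hx' : z⁻¹ * e0 x * z = t ^ b := by
    rw [hx, conj_pow]
    group
  have hxT : x ∈ tX D k e0 z := by rw [mem_tX, hx']; exact pow_mem ht b
  have hxm : x ^ s ^ v = 1 := by
    apply S.inj
    rw [map_pow, map_one, hx, ← hm, ← pow_mul, conj_pow, mul_comm, pow_mul, h2, one_pow]
    group
  have hne : x ≠ 1 := by
    rintro rfl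
    rw [map_one, mul_one, inv_mul_cancel] at hx'
    have h5 : cX hp (t ^ b) x0 = 1 := by rw [← hx', cX_one]
    rw [cX_pow hp ht, h3, hL, zpow_one] at h5
    exact hb (hζ.dvd_of_pow_eq_one _ h5)
  have h5 : s ∣ orderOf x := by
    obtain ⟨j, hj, hjo⟩ := (Nat.dvd_prime_pow hs).1 (orderOf_dvd_of_pow_eq_one hxm)
    rcases Nat.eq_zero_or_pos j with rfl | hj0
    · rw [pow_zero, orderOf_eq_one_iff] at hjo
      exact absurd hjo hne
    · rw [hjo]
      exact dvd_pow_self s hj0.ne'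
  have h6 : orderOf (⟨x, hxT⟩ : tX D k e0 z) = orderOf x := by rw [← Subgroup.orderOf_coe]
  exact h5.trans (h6 ▸ orderOf_dvd_natCard _)

end Gen

/-! ### `E₆`, `E₇`, `E₈`, `²E₆` : `Kill` -/

theorem pairs_E6 (F : Type u) [Field F] [Fintype F] : ∀ x ∈ [(5, 2), (8, 2), (6, 3), (12, 3)],
    Kill ↥(chevE6.group F) (Fintype.card F) x.1 x.2 := by
  intro x hx
  simp only [List.mem_cons, List.not_mem_nil, or_false] at hx
  rcases hx with rfl | rfl | rfl | rfl
  · exact (deadZ_E6 F (by decide) (by decide) hasD_E6_5_2).kill (by norm_num) (by norm_num) (noBad_E6 _ (by decide))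
  · exact (deadZ_E6 F (by decide) (by decide) hasD_E6_8_2).kill (by norm_num) (by norm_num) (noBad_E6 _ (by decide))
  · exact (deadZ_E6 F (by decide) (by decide) hasD_E6_6_3).kill (by norm_num) (by norm_num) (noBad_E6 _ (by decide))
  · exact (deadZ_E6 F (by decide) (by decide) hasD_E6_12_3).kill (by norm_num) (by norm_num) (noBad_E6 _ (by decide))

theorem pairs_E7 (F : Type u) [Field F] [Fintype F] :
    ∀ x ∈ [(4, 2), (5, 2), (5, 3), (6, 2), (8, 2), (8, 4), (10, 2), (10, 6), (12, 2), (12, 3), (12, 6), (14, 2),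
      (18, 2)], Kill ↥(chevE7.group F) (Fintype.card F) x.1 x.2 := by
  intro x hx
  simp only [List.mem_cons, List.not_mem_nil, or_false] at hx
  rcases hx with rfl | rfl | rfl | rfl | rfl | rfl | rfl | rfl | rfl | rfl | rfl | rfl | rfl
  · exact (deadZ_E7 F (by decide) (by decide) hasD_E7_4_2).kill (by norm_num) (by norm_num) (noBad_E7 _ (by decide))
  · exact (deadZ_E7 F (by decide) (by decide) hasD_E7_5_2).kill (by norm_num) (by norm_num) (noBad_E7 _ (by decide))
  · exact (deadZ_E7 F (by decide) (by decide) hasD_E7_5_3).kill (by norm_num) (by norm_num) (noBad_E7 _ (by decide))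
  · exact (deadZ_E7 F (by decide) (by decide) hasD_E7_6_2).kill (by norm_num) (by norm_num) (noBad_E7 _ (by decide))
  · exact (deadZ_E7 F (by decide) (by decide) hasD_E7_8_2).kill (by norm_num) (by norm_num) (noBad_E7 _ (by decide))
  · exact (deadZ_E7 F (by decide) (by decide) hasD_E7_8_4).kill (by norm_num) (by norm_num) (noBad_E7 _ (by decide))
  · exact (deadZ_E7 F (by decide) (by decide) hasD_E7_10_2).kill (by norm_num) (by norm_num) (noBad_E7 _ (by decide))
  · exact (deadZ_E7 F (by decide) (by decide) hasD_E7_10_6).kill (by norm_num) (by norm_num) (noBad_E7 _ (by decide))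
  · exact (deadZ_E7 F (by decide) (by decide) hasD_E7_12_2).kill (by norm_num) (by norm_num) (noBad_E7 _ (by decide))
  · exact (deadZ_E7 F (by decide) (by decide) hasD_E7_12_3).kill (by norm_num) (by norm_num) (noBad_E7 _ (by decide))
  · exact (deadZ_E7 F (by decide) (by decide) hasD_E7_12_6).kill (by norm_num) (by norm_num) (noBad_E7 _ (by decide))
  · exact (deadZ_E7 F (by decide) (by decide) hasD_E7_14_2).kill (by norm_num) (by norm_num) (noBad_E7 _ (by decide))
  · exact (deadZ_E7 F (by decide) (by decide) hasD_E7_18_2).kill (by norm_num) (by norm_num) (noBad_E7 _ (by decide))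

theorem pairs_E8 (F : Type u) [Field F] [Fintype F] : ∀ x ∈ [(7, 2), (9, 2), (9, 3), (14, 2), (18, 2), (18, 6)],
    Kill ↥(chevE8.group F) (Fintype.card F) x.1 x.2 := by
  intro x hx
  simp only [List.mem_cons, List.not_mem_nil, or_false] at hx
  rcases hx with rfl | rfl | rfl | rfl | rfl | rfl
  · exact (deadZ_E8 F (by decide) (by decide) hasD_E8_7_2).kill (by norm_num) (by norm_num) (noBad_E8 _ (by decide))
  · exact (deadZ_E8 F (by decide) (by decide) hasD_E8_9_2).kill (by norm_num) (by norm_num) (noBad_E8 _ (by decide))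
  · exact (deadZ_E8 F (by decide) (by decide) hasD_E8_9_3).kill (by norm_num) (by norm_num) (noBad_E8 _ (by decide))
  · exact (deadZ_E8 F (by decide) (by decide) hasD_E8_14_2).kill (by norm_num) (by norm_num) (noBad_E8 _ (by decide))
  · exact (deadZ_E8 F (by decide) (by decide) hasD_E8_18_2).kill (by norm_num) (by norm_num) (noBad_E8 _ (by decide))
  · exact (deadZ_E8 F (by decide) (by decide) hasD_E8_18_6).kill (by norm_num) (by norm_num) (noBad_E8 _ (by decide))

/-! ### `KillTwo` -/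

theorem int_odd {q : ℕ} (h : q % 2 = 1) : (q : ℤ) % 2 = 1 := by omega

theorem two_F4 (F : Type u) [Field F] [Fintype F] (h : Fintype.card F % 2 = 1) :
    ∀ f ∈ [2, 4, 8], KillTwo ↥(chevF4.group F) (Fintype.card F) f := by
  intro f hf
  have h2 := two_dvd_cyc (int_odd h)
  simp only [List.mem_cons, List.not_mem_nil, or_false] at hf
  rcases hf with rfl | rfl | rfl
  · exact killTwo_F4 F h
  · exact (deadZ_F4 F (by decide) (by decide) hasD_F4_4_4).killTwo (by norm_num) (noBad_F4 _ (by decide)) (by norm_num)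
      (h2 4 (by decide))
  · exact (deadZ_F4 F (by decide) (by decide) hasD_F4_8_8).killTwo (by norm_num) (noBad_F4 _ (by decide)) (by norm_num)
      (h2 8 (by decide))

theorem two_E6 (F : Type u) [Field F] [Fintype F] (h : Fintype.card F % 2 = 1) :
    ∀ f ∈ [4, 5, 8], KillTwo ↥(chevE6.group F) (Fintype.card F) f := by
  intro f hf
  have h2 := two_dvd_cyc (int_odd h)
  simp only [List.mem_cons, List.not_mem_nil, or_false] at hf
  rcases hf with rfl | rfl | rfl
  · exact (deadZ_E6 F (by decide) (by decide) hasD_E6_4_4).killTwo (by norm_num) (noBad_E6 _ (by decide)) (by norm_num)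
      (h2 4 (by decide))
  · exact (deadZ_E6 F (by decide) (by decide) hasD_E6_5_2).killTwo (by norm_num) (noBad_E6 _ (by decide)) (by norm_num)
      (h2 2 (by decide))
  · exact (deadZ_E6 F (by decide) (by decide) hasD_E6_8_8).killTwo (by norm_num) (noBad_E6 _ (by decide)) (by norm_num)
      (h2 8 (by decide))

/-- `KillTwo 2` in `E₆` but for the prime `3` -/
theorem two_E6_two (F : Type u) [Field F] [Fintype F] (h : Fintype.card F % 2 = 1) :
    ∀ r : ℕ, r.Prime → r ≠ 2 → r ≠ 3 → ord (Fintype.card F) r = 2 → ¬ Same 2 r ↥(chevE6.group F) := by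
  intro r hr hr2 hr3 h1 hS
  have h1' : orderOf ((Fintype.card F : ℤ) : ZMod r) = 2 := by rw [cast_ord]; exact h1
  refine deadZ_E6 F (by decide) (by decide) hasD_E6_2_2 r 2 hr Nat.prime_two hr2 (fun i hi hni hri => ?_)
    (fun h3 => by omega) h1' (by exact_mod_cast two_dvd_cyc (int_odd h) 2 (by decide)) hS.symm
  have key : ∀ i ∈ [2, 5, 6, 8, 9, 12], 2 ∣ i → ∀ r < 13, r.Prime → r ≠ 2 → r ∣ i → r = 3 := by
    decide +kernel
  exact hr3 (key i hi hni r (lt_of_le_of_lt (Nat.le_of_dvd (lt_E6 i hi).1 hri) (lt_E6 i hi).2) hr hr2 hri)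

theorem two_E8 (F : Type u) [Field F] [Fintype F] (h : Fintype.card F % 2 = 1) :
    ∀ f ∈ [2, 7, 8, 9, 14, 18], KillTwo ↥(chevE8.group F) (Fintype.card F) f := by
  intro f hf
  have h2 := two_dvd_cyc (int_odd h)
  simp only [List.mem_cons, List.not_mem_nil, or_false] at hf
  rcases hf with rfl | rfl | rfl | rfl | rfl | rfl
  · exact killTwo_E8 F h
  · exact (deadZ_E8 F (by decide) (by decide) hasD_E8_7_2).killTwo (by norm_num) (noBad_E8 _ (by decide)) (by norm_num)
      (h2 2 (by decide))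
  · exact (deadZ_E8 F (by decide) (by decide) hasD_E8_8_8).killTwo (by norm_num) (noBad_E8 _ (by decide)) (by norm_num)
      (h2 8 (by decide))
  · exact (deadZ_E8 F (by decide) (by decide) hasD_E8_9_2).killTwo (by norm_num) (noBad_E8 _ (by decide)) (by norm_num)
      (h2 2 (by decide))
  · exact (deadZ_E8 F (by decide) (by decide) hasD_E8_14_2).killTwo (by norm_num) (noBad_E8 _ (by decide))
      (by norm_num) (h2 2 (by decide))
  · exact (deadZ_E8 F (by decide) (by decide) hasD_E8_18_2).killTwo (by norm_num) (noBad_E8 _ (by decide))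
      (by norm_num) (h2 2 (by decide))

/-- `KillTwo 4` in `E₈` but for the prime `5` -/
theorem two_E8_four (F : Type u) [Field F] [Fintype F] (h : Fintype.card F % 2 = 1) :
    ∀ r : ℕ, r.Prime → r ≠ 2 → r ≠ 5 → ord (Fintype.card F) r = 4 → ¬ Same 2 r ↥(chevE8.group F) := by
  intro r hr hr2 hr5 h1 hS
  have h1' : orderOf ((Fintype.card F : ℤ) : ZMod r) = 4 := by rw [cast_ord]; exact h1
  have hQr := not_dvd_of_orderOf (by norm_num) hr h1'
  have hnr : 4 ∣ r - 1 := by rw [← h1']; exact H630.Exc.ord_dvd hr hQr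
  refine deadZ_E8 F (by decide) (by decide) hasD_E8_4_4 r 2 hr Nat.prime_two hr2 (fun i hi hni hri => ?_)
    (fun h3 => by omega) h1' (by exact_mod_cast two_dvd_cyc (int_odd h) 4 (by decide)) hS.symm
  have key : ∀ i ∈ [2, 8, 12, 14, 18, 20, 24, 30], 4 ∣ i → ∀ r < 31, r.Prime → r ≠ 2 → r ∣ i → r ≤ 5 := by
    decide +kernel
  have hlt : ∀ i ∈ [2, 8, 12, 14, 18, 20, 24, 30], 0 < i ∧ i < 31 := by decide
  have := key i hi hni r (lt_of_le_of_lt (Nat.le_of_dvd (hlt i hi).1 hri) (hlt i hi).2) hr hr2 hri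
  have := hr.two_le
  omega

/-! ### small primes -/

/-- the small primes of a table -/
theorem DeadZ.small {degs : List ℕ} {d : ℕ} {X : Type v} [Group X] {q n m s : ℕ} (h : DeadZ degs d X (q : ℤ) n m)
    (hn : 1 < n) (hb : NoBad degs n) (hs : s.Prime) (hd : ¬ s ∣ d ∨ ord q s ≠ 1)
    (hq : (s : ℤ) ∣ (Polynomial.cyclotomic m ℤ).eval (q : ℤ)) :
    ∀ r : ℕ, r.Prime → r ≠ 2 → r ≠ s → ord q r = n → ¬ Same r s X := by
  intro r hr hr2 hrs h1
  have h1' : orderOf ((q : ℤ) : ZMod r) = n := by rw [cast_ord]; exact h1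
  have hQr := not_dvd_of_orderOf (by omega) hr h1'
  have hnr : n ∣ r - 1 := by rw [← h1']; exact H630.Exc.ord_dvd hr hQr
  refine h r s hr hs hrs (hb.not_dvd hr hr2 hnr) (fun h3 => ?_) h1' hq
  rcases hd with hd | hd
  · exact hd h3.1
  · apply hd
    have h4 := (dvd_pow_sub_one_iff (r := s) (Q := (q : ℤ)) 1).1 (by rw [pow_one]; exact h3.2)
    rw [cast_ord] at h4
    exact Nat.dvd_one.1 h4

theorem three_dvd_six {q : ℕ} (h : ord q 3 = 2) : ((3 : ℕ) : ℤ) ∣ (Polynomial.cyclotomic 6 ℤ).eval (q : ℤ) := by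
  have h1 : orderOf ((q : ℤ) : ZMod 3) = 2 := by rw [cast_ord]; exact h
  have h2 := dvd_cyclotomic Nat.prime_three (not_dvd_of_orderOf (by norm_num) Nat.prime_three h1)
  rw [h1, cyclotomic_eq _ (by decide)] at h2
  rw [cyclotomic_eq _ (by decide)]
  simp only [cycL, ofL, Polynomial.eval_add, Polynomial.eval_mul, Polynomial.eval_C, Polynomial.eval_X,
      Polynomial.eval_zero] at h2 ⊢
  obtain ⟨t, ht⟩ := h2
  have h3 : (q : ℤ) = 3 * t - 1 := by push_cast at ht; linarith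
  rw [h3]
  exact ⟨3 * t ^ 2 - 3 * t + 1, by push_cast; ring⟩

theorem five_dvd_ten {q : ℕ} (h : ord q 5 = 2) : ((5 : ℕ) : ℤ) ∣ (Polynomial.cyclotomic 10 ℤ).eval (q : ℤ) := by
  have h1 : orderOf ((q : ℤ) : ZMod 5) = 2 := by rw [cast_ord]; exact h
  have h2 := dvd_cyclotomic Nat.prime_five (not_dvd_of_orderOf (by norm_num) Nat.prime_five h1)
  rw [h1, cyclotomic_eq _ (by decide)] at h2
  rw [cyclotomic_eq _ (by decide)]
  simp only [cycL, ofL, Polynomial.eval_add, Polynomial.eval_mul, Polynomial.eval_C, Polynomial.eval_X,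
      Polynomial.eval_zero] at h2 ⊢
  obtain ⟨t, ht⟩ := h2
  have h3 : (q : ℤ) = 5 * t - 1 := by push_cast at ht; linarith
  rw [h3]
  exact ⟨125 * t ^ 4 - 125 * t ^ 3 + 50 * t ^ 2 - 10 * t + 1, by push_cast; ring⟩

theorem five_dvd_twenty {q : ℕ} (h : ord q 5 = 4) : ((5 : ℕ) : ℤ) ∣ (Polynomial.cyclotomic 20 ℤ).eval (q : ℤ) := by
  have h1 : orderOf ((q : ℤ) : ZMod 5) = 4 := by rw [cast_ord]; exact h
  have h2 := dvd_cyclotomic Nat.prime_five (not_dvd_of_orderOf (by norm_num) Nat.prime_five h1)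
  rw [h1, cyclotomic_eq _ (by decide)] at h2
  rw [cyclotomic_eq _ (by decide)]
  simp only [cycL, ofL, Polynomial.eval_add, Polynomial.eval_mul, Polynomial.eval_C, Polynomial.eval_X,
      Polynomial.eval_zero] at h2 ⊢
  obtain ⟨t, ht⟩ := h2
  have h3 : (q : ℤ) * q = 5 * t - 1 := by push_cast at ht; linarith
  have h4 : (1 : ℤ) + q * (0 + q * (-1 + q * (0 + q * (1 + q * (0 + q * (-1 + q * (0 + q * (1 + q * 0)))))))) =
      ((q : ℤ) * q) ^ 4 - (q * q) ^ 3 + (q * q) ^ 2 - q * q + 1 := by ring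
  rw [h4, h3]
  exact ⟨125 * t ^ 4 - 125 * t ^ 3 + 50 * t ^ 2 - 10 * t + 1, by push_cast; ring⟩

theorem small_G2 (F : Type u) [Field F] [Fintype F] (h : ord (Fintype.card F) 3 = 2) :
    ∀ r : ℕ, r.Prime → r ≠ 2 → r ≠ 3 → ord (Fintype.card F) r = 6 → ¬ Same r 3 ↥(chevG2.group F) :=
  (deadZ_G2 F (by decide) (by decide) hasD_G2_6_6).small (by norm_num) (noBad_G2 _ (by decide)) Nat.prime_three
    (Or.inl (by norm_num)) (three_dvd_six h)

theorem small_F4 (F : Type u) [Field F] [Fintype F] (h : ord (Fintype.card F) 3 = 2) :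
    ∀ r : ℕ, r.Prime → r ≠ 2 → r ≠ 3 → ord (Fintype.card F) r = 6 → ¬ Same r 3 ↥(chevF4.group F) :=
  (deadZ_F4 F (by decide) (by decide) hasD_F4_6_6).small (by norm_num) (noBad_F4 _ (by decide)) Nat.prime_three
    (Or.inl (by norm_num)) (three_dvd_six h)

theorem small_E6 (F : Type u) [Field F] [Fintype F] (h : ord (Fintype.card F) 3 = 2) :
    ∀ r : ℕ, r.Prime → r ≠ 2 → r ≠ 3 → ord (Fintype.card F) r = 6 → ¬ Same r 3 ↥(chevE6.group F) :=
  (deadZ_E6 F (by decide) (by decide) hasD_E6_6_6).small (by norm_num) (noBad_E6 _ (by decide)) Nat.prime_three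
    (Or.inr (by omega)) (three_dvd_six h)

theorem small_E8_6 (F : Type u) [Field F] [Fintype F] (h : ord (Fintype.card F) 3 = 2) :
    ∀ r : ℕ, r.Prime → r ≠ 2 → r ≠ 3 → ord (Fintype.card F) r = 6 → ¬ Same r 3 ↥(chevE8.group F) :=
  (deadZ_E8 F (by decide) (by decide) hasD_E8_6_6).small (by norm_num) (noBad_E8 _ (by decide)) Nat.prime_three
    (Or.inl (by norm_num)) (three_dvd_six h)

theorem small_E8_10 (F : Type u) [Field F] [Fintype F] (h : ord (Fintype.card F) 5 = 2) :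
    ∀ r : ℕ, r.Prime → r ≠ 2 → r ≠ 5 → ord (Fintype.card F) r = 10 → ¬ Same r 5 ↥(chevE8.group F) :=
  (deadZ_E8 F (by decide) (by decide) hasD_E8_10_10).small (by norm_num) (noBad_E8 _ (by decide)) Nat.prime_five
    (Or.inl (by norm_num)) (five_dvd_ten h)

theorem small_E8_20 (F : Type u) [Field F] [Fintype F] (h : ord (Fintype.card F) 5 = 4) :
    ∀ r : ℕ, r.Prime → r ≠ 2 → r ≠ 5 → ord (Fintype.card F) r = 20 → ¬ Same r 5 ↥(chevE8.group F) :=
  (deadZ_E8 F (by decide) (by decide) hasD_E8_20_20).small (by norm_num) (noBad_E8 _ (by decide)) Nat.prime_five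
    (Or.inl (by norm_num)) (five_dvd_twenty h)

end Cfsg.Agent.H755.PQ
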