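import Cfsg.Agent.H755.PQ.TorRows

/-!
# S4612: the pairs of orders 3, 6 in `E₆(q)` (helper755)

* `kill_E6_36` : the torus `Φ₃ Φ₆²` (square of the Coxeter element) contains a Sylow `l`-subgroup, `l ∣ Φ₆`.
-/

set_option autoImplicit false
set_option linter.unusedSectionVars false
set_option linter.unusedVariables false

namespace Cfsg.Agent.H755.PQ

open CoxeterSystem Cfsg Cfsg.Lie Cfsg.Lie.ChevalleyDatum
open Cfsg.Agent.ChevalleyStructure Cfsg.Agent.ChevalleyStructure.Elts Cfsg.Agent.ChevalleyStructure.CoxeterGeom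
  Cfsg.Agent.ChevalleyStructure.CoxeterGeomTypes Cfsg.Agent.ChevalleyStructure.NPerm
open Cfsg.Agent.Tits.Roots Cfsg.Agent.Tits.Core Cfsg.Agent.Nodes Cfsg.Agent.Nodes.Reps Cfsg.Agent.Nodes.BNOf
  Cfsg.Agent.Nodes.RGDChev Cfsg.Agent.Nodes.Bruhat Cfsg.Agent.Nodes.SubComb Cfsg.Agent.Nodes.Coroot
open Cfsg.Agent.KFacts.RgdField Cfsg.Agent.KFacts.RgdChevCoord Cfsg.Agent.BpExc.TorCent Cfsg.Agent.BpExc.TorChev
open Cfsg.Agent.GpExc.Field Cfsg.Agent.BpExc.Tow Cfsg.Agent.BpExc.TowChev Cfsg.Agent.BpExc.Fr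
  Cfsg.Agent.BpExc.LangFr Cfsg.Agent.LangThm Cfsg.Agent.BpExc Cfsg.Agent.H129.TorusChar Cfsg.Agent.H129.TorusMain
open Cfsg.Agent.H630.NH Cfsg.Agent.H630.Exc Cfsg.Agent.H317.PQ Cfsg.Agent.H990.PQ
open Cfsg.Agent.H130.WeylCk Cfsg.Agent.H130.PolyL Cfsg.Agent.H130.WeylTab

universe u v

/-- certificates without the order of the element -/
def CertW (Al : List (List ℤ)) (l e a : ℕ) (word : List (Fin l)) (k : ℕ) (c : ℤ) (xs ys : List (List ℤ)) : Prop :=
  (∀ i : Fin a, (xs.getD i []).length = l ∧ (ys.getD i []).length = l) ∧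
  (∀ i : Fin a, horner Al word k (xs.getD i []) (cycL e) = List.replicate l 0) ∧
  (∀ i : Fin a, ∀ i' : Fin a, ∀ j : Fin ((cycL e).length - 1), dot (ys.getD i []) (acn Al word (k * j) (xs.getD i' [])) =
    if i = i' ∧ j.1 + 2 = (cycL e).length then c else 0)

instance instDecidableCertW (Al : List (List ℤ)) (l e a : ℕ) (word : List (Fin l)) (k : ℕ) (c : ℤ)
    (xs ys : List (List ℤ)) : Decidable (CertW Al l e a word k c xs ys) := by
  unfold CertW
  infer_instance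

theorem certW_data {D : ChevalleyDatum} {l : ℕ} {M : CoxeterMatrix (Fin l)} (hp : IsType D l M)
    {W : Type*} [Group W] (cs : CoxeterSystem M W)
    {Al : List (List ℤ)} (hA : MatList (cartanOf D l) Al) {word : List (Fin l)} {j n a : ℕ}
    (hn : n ∈ H130.PolyL.idx) {c : ℤ} {xs ys : List (List ℤ)} (H : CertW Al l n a word j c xs ys) :
    ∃ (x : Fin a → Fin l → ℤ) (y : Fin a → ((Fin l → ℤ) →ₗ[ℤ] ℤ)),
      (∀ i, Polynomial.aeval (rep cs hp.isCartan (cs.wordProd word ^ j)) (Polynomial.cyclotomic n ℤ) (x i) = 0) ∧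
      (∀ i i', ∀ j' < (Polynomial.cyclotomic n ℤ).natDegree,
        y i ((rep cs hp.isCartan (cs.wordProd word ^ j) ^ j') (x i')) =
        if i = i' ∧ j' + 1 = (Polynomial.cyclotomic n ℤ).natDegree then c else 0) := by
  obtain ⟨h2, h3, h4⟩ := H
  refine ⟨fun i => toFn l (xs.getD i []), fun i => fn l (ys.getD i []), ?_, ?_⟩
  · intro i
    rw [cyclotomic_eq _ hn, ← toFn_horner cs hp.isCartan hA word j _ (h2 i).1, h3 i, toFn_replicate]
  · intro i i' j' hj
    have hdeg := natDegree_cyclotomic_eq hn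
    have h5 := h4 i i' ⟨j', by omega⟩
    have h6 : (fn l (ys.getD i [])) ((rep cs hp.isCartan (cs.wordProd word ^ j) ^ j') (toFn l (xs.getD i' []))) =
        dot (ys.getD i []) (acn Al word (j * j') (xs.getD i' [])) := by
      rw [dot_eq _ _ (h2 i).2 (by rw [length_acn, (h2 i').1]), toFn_acn cs hp.isCartan hA word _ _ (h2 i').1, map_pow,
        ← pow_mul]
      rfl
    rw [h6, h5]
    congr 1
    apply propext
    constructor
    · rintro ⟨h7, h8⟩
      exact ⟨h7, by simp only at h8; omega⟩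
    · rintro ⟨h7, h8⟩
      exact ⟨h7, by simp only; omega⟩

theorem cert_E6_6 : Cert alE6 6 6 2 [0, 1, 2, 3, 4, 5] 2 1 [[-1, 0, -1, 0, 1, 1], [1, 0, 1, 1, 0, 0]]
    [[0, 0, 0, 0, -1, 1], [0, 1, 0, 0, -2, 2]] := by decide +kernel

theorem certW_E6_3 : CertW alE6 6 3 1 [0, 1, 2, 3, 4, 5] 2 1 [[-1, 0, -1, 0, -1, -1]] [[-1, 0, 1, 0, 0, 0]] := by
  decide +kernel

/-- **`E₆`, orders 3 and 6.** -/
theorem kill_E6_36 (F : Type u) [Field F] [Fintype F] : Kill ↥(chevE6.group F) (Fintype.card F) 3 6 := by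
  obtain ⟨k, _, _, f, p, hpp, hkp, e, hk, hka, he0, hcF⟩ := H378.TorFin.exists_closure F
  have cs := CoxeterMatrix.E₆.toCoxeterSystem
  have hW := finite_W e6T cs
  have hcF' : Fintype.card F = p ^ e := by rw [← Nat.card_eq_fintype_card, hcF]
  have S := setup_untw e6T cs hk f he0 hcF' invC_E6 three_ne_zero
  have hpos : 0 < p ^ e := pow_pos hpp.out.pos _
  have hcard : Nat.gcd 3 (p ^ e - 1) * Nat.card ↥(chevE6.group F) = (p ^ e) ^ 36 *
      (([2, 5, 6, 8, 9, 12].map (fun i => ((p ^ e : ℕ) : ℤ) ^ i - 1)).prod).natAbs := by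
    rw [natAbs_prod _ hpos, S1063.result hcF']
    simp only [List.map_cons, List.map_nil, List.prod_cons, List.prod_nil, mul_one]
    ring
  have hd : ∀ r : ℕ, r.Prime → r ∣ Nat.gcd 3 (Nat.card F - 1) → orderOf ((p ^ e : ℕ) : ZMod r) = 1 := by
    intro r hr h
    rw [← hcF', ← Nat.card_eq_fintype_card]
    exact (ord_eq_one Nat.card_pos).2 (h.trans (Nat.gcd_dvd_right _ _))
  have h1 : (1 : ℤ) = 1 ∨ (1 : ℤ) = -1 := Or.inl rfl
  have hnp : ∀ s : ℕ, s.Prime → ∀ n, 0 < n → ord (Fintype.card F) s = n → s ≠ p := by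
    rintro s hs n hn h rfl
    have : Fact s.Prime := ⟨hs⟩
    have h1 : ((Fintype.card F : ℕ) : ZMod s) = 0 := by
      rw [ZMod.natCast_eq_zero_iff, hcF']
      exact dvd_pow_self _ he0.ne'
    have h2 : orderOf ((Fintype.card F : ℕ) : ZMod s) = 0 := by
      rw [h1, orderOf_eq_zero_iff']
      intro m hm
      rw [zero_pow hm.ne']
      exact zero_ne_one
    rw [ord, h2] at h
    omega
  intro s r hs hr hs2 hr2 hsr hsX hrX hsn hrn
  have hsp := hnp s hs 3 (by norm_num) hsn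
  have hrp := hnp r hr 6 (by norm_num) hrn
  rw [ord, hcF'] at hsn hrn
  have hsd : ¬ s ∣ Nat.gcd 3 (Nat.card F - 1) := fun h => by rw [hd s hs h] at hsn; omega
  have hrd : ¬ r ∣ Nat.gcd 3 (Nat.card F - 1) := fun h => by rw [hd r hr h] at hrn; omega
  rw [← cast_ord] at hsn hrn
  obtain ⟨T, hTor⟩ := exists_isTor e6T cs S (hasTor_one e6T cs (cs.wordProd [0, 1, 2, 3, 4, 5] ^ 2))
  have hR := rep_pow_eq_one e6T cs lists_E6 [0, 1, 2, 3, 4, 5] 2 6 cert_E6_6.1
  have hQr := not_dvd_Q (p := p) (e := e) Fact.out hr hrp h1 (one_mul _).symm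
  have hQs := not_dvd_Q (p := p) (e := e) Fact.out hs hsp h1 (one_mul _).symm
  have h6 : 6 ∣ r - 1 := by rw [← hrn]; exact H630.Exc.ord_dvd hr hQr
  have h3 : 3 ∣ s - 1 := by rw [← hsn]; exact H630.Exc.ord_dvd hs hQs
  have hr6 : ¬ r ∣ 6 := fun h => by
    have := Nat.le_of_dvd (by norm_num) h
    have := Nat.le_of_dvd (by have := hr.two_le; omega) h6
    omega
  have hs6 : ¬ s ∣ 6 := fun h => by
    rcases (Nat.Prime.dvd_mul (m := 2) (n := 3) hs).1 h with h | h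
    · exact hs2 ((Nat.prime_dvd_prime_iff_eq hs Nat.prime_two).1 h)
    · obtain rfl := (Nat.prime_dvd_prime_iff_eq hs Nat.prime_three).1 h
      omega
  have hfs := exists_prod hr hQr [2, 5, 6, 8, 9, 12] (by
    rw [hrn]; exact (noBad_E6 6 (by decide)).not_dvd hr hr2 h6)
  rw [hrn] at hfs
  obtain ⟨x, y, hx, hy⟩ := cert_data e6T cs lists_E6 (n := 6) (by decide) cert_E6_6
  obtain ⟨x', y', hx', hy'⟩ := certW_data e6T cs lists_E6 (n := 3) (by decide) certW_E6_3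
  have hi := IsTor.not_dvd_index e6T cs hTor h1 hr hrp hrd hr2 (one_mul _).symm (by norm_num) hrn hR dvd_rfl hr6 x y 1
    (not_dvd_c (Or.inl rfl) hr hr2) hx hy hcard hfs
  have hv : ((s ^ 1 : ℕ) : ℤ) ∣ (Polynomial.cyclotomic 3 ℤ).eval ((p ^ e : ℕ) : ℤ) := by
    rw [pow_one, ← hsn]
    exact dvd_cyclotomic hs hQs
  have hsT := IsTor.pow_dvd_card e6T cs hTor h1 hs hsp hsd hs2 (one_mul _).symm hsn hR (by norm_num) hs6 x' y' 1
    (not_dvd_c (Or.inl rfl) hs hs2) hx' hy' hv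
  rw [pow_one, pow_one] at hsT
  exact fun h => IsTor.not_same_good e6T cs hTor hr hs hsr.symm hi hsT h.symm

end Cfsg.Agent.H755.PQ
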