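import Cfsg.Agent.H755.PQ.TorDualP
import Cfsg.Agent.H251.PQ.TorNorm

/-!
# S4612: tori on which no root is trivial (helper755)

`IsTor.not_same_root` : if no root is trivial on the `r`-part of the torus `T` and `s ∣ |T|`, then not `Same r s`
(any primes); after helper251's `not_same_of_normal`.
-/

set_option autoImplicit false
set_option linter.unusedSectionVars false
set_option linter.unusedVariables false

namespace Cfsg.Agent.H755.PQ

open CoxeterSystem Cfsg Cfsg.Lie Cfsg.Lie.ChevalleyDatum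
open Cfsg.Agent.ChevalleyStructure Cfsg.Agent.ChevalleyStructure.Elts Cfsg.Agent.ChevalleyStructure.CoxeterGeom
  Cfsg.Agent.ChevalleyStructure.CoxeterGeomTypes Cfsg.Agent.ChevalleyStructure.NPerm
open Cfsg.Agent.Tits.Roots Cfsg.Agent.Tits.Core Cfsg.Agent.Nodes Cfsg.Agent.Nodes.Reps Cfsg.Agent.Nodes.BNOf
  Cfsg.Agent.Nodes.RGDChev Cfsg.Agent.Nodes.Bruhat Cfsg.Agent.Nodes.SubComb Cfsg.Agent.Nodes.Coroot
open Cfsg.Agent.KFacts.RgdField Cfsg.Agent.KFacts.RgdChevCoord Cfsg.Agent.BpExc.TorCent Cfsg.Agent.BpExc.TorChev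
open Cfsg.Agent.GpExc.Field Cfsg.Agent.BpExc.Tow Cfsg.Agent.BpExc.TowChev Cfsg.Agent.BpExc.Fr
  Cfsg.Agent.BpExc.LangFr Cfsg.Agent.LangThm Cfsg.Agent.BpExc Cfsg.Agent.H129.TorusChar Cfsg.Agent.H129.TorusMain
open Cfsg.Agent.H129.TorAct (cX_tau tau_mem exists_theta)
open Cfsg.Agent.H129.TorusUntw (phi phi_emb coe_phi isFrob_phi fr_phi)
open Cfsg.Agent.H630.NH Cfsg.Agent.H630.Exc Cfsg.Agent.H317.PQ Cfsg.Agent.H990.PQ
open Cfsg.Agent.H130.WeylCk Cfsg.Agent.H130.PolyL Cfsg.Agent.H130.WeylTab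

universe u v

section Gen

variable {D : ChevalleyDatum} {l : ℕ} {M : CoxeterMatrix (Fin l)} (hp : IsType D l M)
  {W : Type*} [Group W] (cs : CoxeterSystem M W)

/-- no root is trivial on the functionals `Ls` modulo `m` -/
def RootCk (D : ChevalleyDatum) (l : ℕ) (Al : List (List ℤ)) (word : List (Fin l)) (k : ℕ) (m c : ℤ)
    (Ls : List (List ℤ)) : Prop :=
  (∀ L ∈ Ls, L.length = l ∧ ∀ j : Fin l, m ∣ dot L (acn Al word k (bas l j)) - c * dot L (bas l j)) ∧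
  (∀ v ∈ rootL D l, ∃ L ∈ Ls, ¬ m ∣ dot L v)

instance decRootCk (D : ChevalleyDatum) (l : ℕ) (Al : List (List ℤ)) (word : List (Fin l)) (k : ℕ) (m c : ℤ)
    (Ls : List (List ℤ)) : Decidable (RootCk D l Al word k m c Ls) := by
  unfold RootCk
  infer_instance

theorem root_data {Al : List (List ℤ)} (hA : MatList (cartanOf D l) Al) {word : List (Fin l)} {k : ℕ} {m c : ℤ}
    {Ls : List (List ℤ)} (H : RootCk D l Al word k m c Ls) {Q : ℤ} (hQ : m ∣ Q - c) {a : Fin l → ℤ}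
    (ha : IsRoot cs hp.isCartan a) : ∃ L : (Fin l → ℤ) →+ ℤ,
      (∀ x, m ∣ L (rep cs hp.isCartan (cs.wordProd word ^ k) x) - Q * L x) ∧ ¬ m ∣ L a := by
  obtain ⟨h1, h2⟩ := H
  obtain ⟨v, hv, hvl, rfl⟩ := exists_rootL hp cs ha
  obtain ⟨L, hL, hm⟩ := h2 v hv
  obtain ⟨hLl, hLj⟩ := h1 L hL
  refine ⟨(fn l L).toAddMonoidHom, fun x => ?_, fun h => hm ?_⟩
  · have h3 := dvd_of_basis ((fn l L).comp (rep cs hp.isCartan (cs.wordProd word ^ k)) - Q • fn l L) (m := m)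
      (fun i => by
        rw [LinearMap.sub_apply, LinearMap.comp_apply, LinearMap.smul_apply, smul_eq_mul, ← toFn_bas]
        have h4 := hLj i
        rw [dot_eq _ _ hLl (by rw [length_acn, length_bas]), dot_eq _ _ hLl (length_bas _),
          toFn_acn cs hp.isCartan hA word _ _ (length_bas _)] at h4
        have h4' : m ∣ fn l L (((rep cs hp.isCartan (cs.wordProd word)) ^ k) (toFn l (bas l i))) -
            c * fn l L (toFn l (bas l i)) := h4
        have h5 : fn l L (((rep cs hp.isCartan (cs.wordProd word)) ^ k) (toFn l (bas l i))) -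
            Q * fn l L (toFn l (bas l i)) =
            (fn l L (((rep cs hp.isCartan (cs.wordProd word)) ^ k) (toFn l (bas l i))) -
              c * fn l L (toFn l (bas l i))) - (Q - c) * fn l L (toFn l (bas l i)) := by ring
        rw [map_pow, h5]
        exact dvd_sub h4' (hQ.mul_right _)) x
    exact h3
  · rw [dot_eq _ _ hLl hvl]
    exact h

variable {k : Type u} [Field k] {p e : ℕ} [hpF : Fact p.Prime] [CharP k p] {σ : MulAut ↥(D.group k)}
  {g : (Fin l → ℤ) ≃+ (Fin l → ℤ)}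
  {X : Type v} [Group X] {e0 : X →* ↥(D.group k)} {d : ℕ} {S : Setup hp cs p e σ g e0 d}
  {ε : ℤ} {R : Module.End ℤ (Fin l → ℤ)} {T : Subgroup X}

/-- **No root is trivial on the `r`-part of the torus.** -/
theorem IsTor.not_same_root (h : IsTor hp cs S ε R T) [IsAlgClosed k] [Finite W] [Finite X]
    (hε : ε = 1 ∨ ε = -1) {r s : ℕ} (hr : r.Prime) (hs : s.Prime) (hrs : r ≠ s) (hrp : r ≠ p) (hrd : ¬ r ∣ d) {Q : ℤ}
    (hQ : Q = ε * (p ^ e : ℕ)) {v : ℕ}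
    (hroot : ∀ a, IsRoot cs hp.isCartan a → ∃ L : (Fin l → ℤ) →+ ℤ,
      (∀ x, ((r ^ v : ℕ) : ℤ) ∣ L (R x) - Q * L x) ∧ ¬ ((r ^ v : ℕ) : ℤ) ∣ L a) (hsT : s ∣ Nat.card T) :
    ¬ Same r s X := by
  have : Fact r.Prime := ⟨hr⟩
  have hcT := IsTor.comm hp cs h
  have hmT := IsTor.isMulCommutative hp cs h
  obtain ⟨w, n', z, hw, hn', hz, rfl⟩ := h
  obtain ⟨m, hm⟩ : ∃ m, m = r ^ v := ⟨_, rfl⟩
  rw [← hm] at hroot
  have hpp : p.Prime := Fact.out
  have hrk : (r : k) ≠ 0 := by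
    rw [Ne, CharP.cast_eq_zero_iff k p]
    intro h
    exact hrp ((Nat.prime_dvd_prime_iff_eq hpp hr).1 h).symm
  have hmk : (m : k) ≠ 0 := by rw [hm, Nat.cast_pow]; exact pow_ne_zero _ hrk
  obtain ⟨B, d', hd', hB⟩ := S.inv
  obtain ⟨ζ, hζ, hz0, hchar⟩ := exists_charL hp hB hd' (θ := theta hp cs w g) (q := p ^ e) hmk
  have hE : IsPGroup r (tXr hp S.inj z m) := by
    rintro ⟨x', hx'⟩
    exact ⟨v, Subtype.ext (by rw [← hm]; exact hx'.2)⟩
  refine Cfsg.Agent.H251.PQ.not_same_of_normal hr hs hrs (tXr hp S.inj z m) (tX D k e0 z) hE hmT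
    (fun x hx => hx.1) (fun c hc b hb => ?_) hsT
  rw [Subgroup.mem_centralizer_iff] at hc
  rw [mem_tX] at hb ⊢
  have h1 := Cfsg.Agent.H251.PQ.mem_norm_of_set hp cs S.lf p
    (Z := (fun y : X => z⁻¹ * e0 y * z) '' (tXr hp S.inj z m : Set X)) (Set.toFinite _)
    (c := z⁻¹ * e0 c * z) ?_ ?_ ?_ hb
  · convert h1 using 1
    rw [map_mul, map_mul, map_inv]
    group
  · rintro _ ⟨y, hy, rfl⟩
    exact (mem_tX).1 hy.1
  · intro a ha
    obtain ⟨L, hL, hLa⟩ := hroot a ha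
    obtain ⟨t, ht, e1, e2, e3⟩ := hchar L (fun x => by
      have h3 : L (theta hp cs w g x) - ((p ^ e : ℕ) : ℤ) * L x = ε * (L (R x) - Q * L x) := by
        rw [hw, map_zsmul, smul_eq_mul, hQ]
        have h2 : ε * ε = 1 := by rcases hε with rfl | rfl <;> norm_num
        linear_combination (((p ^ e : ℕ) : ℤ) * L x) * h2
      rw [h3]
      exact (hL x).mul_left _)
    obtain ⟨x', hx'⟩ := S.exists_of_tau hp cs hz ((tau_iff hp cs S.lf S.frob S.fr hn' ht).2 e1) hr hrd ⟨v, by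
      rw [← hm]; exact e2⟩
    refine ⟨_, ⟨x', ⟨by rw [mem_tX, hx']; exact ht, ?_⟩, rfl⟩, ?_⟩
    · apply S.inj
      have h4 := S.conj_pow_eq hp cs (y := x') (z := z) m
      rw [hx', e2] at h4
      rw [map_one]
      have h5 : e0 (x' ^ m) = z * (z⁻¹ * e0 (x' ^ m) * z) * z⁻¹ := by group
      rw [h5, ← h4]; group
    · show cX hp (z⁻¹ * e0 x' * z) a ≠ 1
      rw [hx', e3]
      intro h5
      exact hLa ((hζ.zpow_eq_one_iff_dvd _).1 h5)
  · rintro _ ⟨y, hy, rfl⟩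
    have h1 : y * c = c * y := hc y hy
    show z⁻¹ * e0 c * z * (z⁻¹ * e0 y * z) = z⁻¹ * e0 y * z * (z⁻¹ * e0 c * z)
    calc z⁻¹ * e0 c * z * (z⁻¹ * e0 y * z) = z⁻¹ * (e0 c * e0 y) * z := by group
      _ = z⁻¹ * (e0 y * e0 c) * z := by rw [← map_mul, ← h1, map_mul]
      _ = _ := by group

variable (S)

include S

/-- **The torus kills, regular version.** -/
theorem not_same_rootCk [IsAlgClosed k] [Finite W] [Finite X] (hε : ε = 1 ∨ ε = -1)
    {Al : List (List ℤ)} (hA : MatList (cartanOf D l) Al) (hT : ∀ w1, HasTor hp cs g ε w1) {Q : ℤ}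
    (hQ : Q = ε * (p ^ e : ℕ)) {word : List (Fin l)} {j : ℕ} {m : ℕ} (hm : 0 < m ∧ m ∈ H130.PolyL.idx)
    {xs ys Ls : List (List ℤ)} (H : DCert Al l m 1 word j xs ys) {r s : ℕ} {v : ℕ} {c : ℤ}
    (hL : RootCk D l Al word j ((r ^ v : ℕ) : ℤ) c Ls) (hc : ((r ^ v : ℕ) : ℤ) ∣ Q - c)
    (hr : r.Prime) (hs : s.Prime) (hrs : r ≠ s) (hrp : r ≠ p) (hsp : s ≠ p)
    (hrd : ¬ r ∣ d) (hsd : ¬ s ∣ d) (hsm : (s : ℤ) ∣ (Polynomial.cyclotomic m ℤ).eval Q) : ¬ Same r s X := by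
  obtain ⟨T, hTor⟩ := exists_isTor hp cs S (hT (cs.wordProd word ^ j))
  obtain ⟨x', y', hx', hy'⟩ := dcert_data hp cs hA hm.2 H
  have c1 : ∀ r : ℕ, r.Prime → ¬ (r : ℤ) ∣ 1 := fun r hr h => by
    have : r ∣ 1 := by exact_mod_cast h
    exact hr.one_lt.ne' (Nat.dvd_one.1 this)
  have hsT := IsTor.pow_dvd_card_dual hp cs hTor hε hs hsp hsd hQ (Polynomial.cyclotomic.monic m ℤ) (by
      rw [Polynomial.natDegree_cyclotomic]
      exact Nat.totient_pos.2 hm.1) x' y' 1 (c1 s hs) hx' hy' (v := 1) (by rw [pow_one]; exact hsm)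
  rw [pow_one, pow_one] at hsT
  exact IsTor.not_same_root hp cs hTor hε hr hs hrs hrp hrd hQ (fun a ha => root_data hp cs hA hL hc ha) hsT

end Gen

end Cfsg.Agent.H755.PQ
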