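import Cfsg.Agent.H755.PQ.TorRoot

/-!
# S4612: the pairs `2, 3` in `E₆` and `2, 5` in `E₈` (helper755)

* `not_same_two_three_E6`, `killTwo_E6_2` : `q ≡ 3 mod 4`;
* `not_same_two_five_E8`, `killTwo_E8_4`.
-/

set_option autoImplicit false
set_option linter.unusedSectionVars false
set_option linter.unusedVariables false
set_option maxRecDepth 100000

namespace Cfsg.Agent.H755.PQ

open CoxeterSystem Cfsg Cfsg.Lie Cfsg.Lie.ChevalleyDatum
open Cfsg.Agent.ChevalleyStructure Cfsg.Agent.ChevalleyStructure.Elts Cfsg.Agent.ChevalleyStructure.CoxeterGeom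
  Cfsg.Agent.ChevalleyStructure.CoxeterGeomTypes Cfsg.Agent.ChevalleyStructure.NPerm
open Cfsg.Agent.Tits.Roots Cfsg.Agent.Tits.Core Cfsg.Agent.Nodes Cfsg.Agent.Nodes.Reps Cfsg.Agent.Nodes.BNOf
  Cfsg.Agent.Nodes.RGDChev Cfsg.Agent.Nodes.Bruhat Cfsg.Agent.Nodes.SubComb Cfsg.Agent.Nodes.Coroot
open Cfsg.Agent.KFacts.RgdField Cfsg.Agent.KFacts.RgdChevCoord Cfsg.Agent.BpExc.TorCent Cfsg.Agent.BpExc.TorChev
open Cfsg.Agent.GpExc.Field Cfsg.Agent.BpExc.Tow Cfsg.Agent.BpExc.TowChev Cfsg.Agent.BpExc.Fr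
  Cfsg.Agent.BpExc.LangFr Cfsg.Agent.LangThm Cfsg.Agent.BpExc Cfsg.Agent.H129.TorusChar Cfsg.Agent.H129.TorusMain
open Cfsg.Agent.H129.TorAct (cX_tau tau_mem exists_theta)
open Cfsg.Agent.H129.TorusUntw (phi phi_emb coe_phi isFrob_phi fr_phi)
open Cfsg.Agent.H630.NH Cfsg.Agent.H630.Exc Cfsg.Agent.H317.PQ Cfsg.Agent.H990.PQ
open Cfsg.Agent.H130.WeylCk Cfsg.Agent.H130.PolyL Cfsg.Agent.H130.WeylTab

universe u v

theorem rootCk_E6 : RootCk chevE6 6 alE6 ([1, 2, 3, 4] : List (Fin 6)) 3 ((2 ^ 2 : ℕ) : ℤ) 3 [[0, 1, 1, 0, 1, 0], [-1, 0, 0, -1, 0, 1]] := by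
  decide +kernel

theorem dcert_E6_2 : DCert alE6 6 2 1 ([1, 2, 3, 4] : List (Fin 6)) 3 [[0, -1, 0, 0, 0, 0]] [[0, -1, 1, 0, -1, 1]] := by
  decide +kernel

theorem rootCk_E8_2 : RootCk chevE8 8 alE8 ([6, 7, 3, 4, 3, 5, 1, 3, 0, 2] : List (Fin 8)) 6 ((5 ^ 1 : ℕ) : ℤ) 2 [[2, 0, 2, -1, -1, 2, -1, 0], [-1, 1, 0, 1, 2, -1, -2, 2]] := by
  decide +kernel

theorem rootCk_E8_3 : RootCk chevE8 8 alE8 ([6, 7, 3, 4, 3, 5, 1, 3, 0, 2] : List (Fin 8)) 6 ((5 ^ 1 : ℕ) : ℤ) 3 [[0, 0, 0, 1, 1, -1, 2, -1], [-2, -2, -2, -1, 1, 1, 1, 1]] := by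
  decide +kernel

theorem dcert_E8_4 : DCert alE8 8 4 1 ([6, 7, 3, 4, 3, 5, 1, 3, 0, 2] : List (Fin 8)) 6 [[-1, 0, 0, 0, 0, 0, 0, 0]] [[0, 0, -1, 1, 0, -1, 0, -1]] := by
  decide +kernel

/-- **`E₆`: the primes 2 and 3.** -/
theorem not_same_two_three_E6 (F : Type u) [Field F] [Fintype F] (h4 : Fintype.card F % 4 = 3)
    (h3 : ord (Fintype.card F) 3 = 2) : ¬ Same 2 3 ↥(chevE6.group F) := by
  obtain ⟨k, _, _, f, p, hpp, hkp, e, hk, hka, he0, hcF⟩ := H378.TorFin.exists_closure F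
  have cs := CoxeterMatrix.E₆.toCoxeterSystem
  have hW := finite_W e6T cs
  have hcF' : Fintype.card F = p ^ e := by rw [← Nat.card_eq_fintype_card, hcF]
  have S := setup_untw e6T cs hk f he0 hcF' invC_E6 three_ne_zero
  have h1 : (1 : ℤ) = 1 ∨ (1 : ℤ) = -1 := Or.inl rfl
  have h2p : 2 ≠ p := two_ne_of_odd he0 hcF' (by omega)
  have h3' : orderOf ((Fintype.card F : ℤ) : ZMod 3) = 2 := by rw [cast_ord]; exact h3
  have h3Q := not_dvd_of_orderOf (by norm_num) Nat.prime_three h3'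
  have hdv := dvd_cyclotomic Nat.prime_three h3Q
  rw [h3'] at hdv
  have hQe : ((Fintype.card F : ℕ) : ℤ) = 1 * ((p ^ e : ℕ) : ℤ) := by rw [hcF', one_mul]
  refine not_same_rootCk e6T cs S h1 lists_E6 (hasTor_one e6T cs) hQe (m := 2) (by decide) dcert_E6_2
    (r := 2) (v := 2) rootCk_E6 (by omega) Nat.prime_two Nat.prime_three (by norm_num) h2p
    (ne_char he0 hQe h3Q) (fun h => ?_) (fun h => ?_) hdv
  · have := Nat.le_of_dvd (by norm_num) (h.trans (Nat.gcd_dvd_left _ _))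
    have h5 := (Nat.prime_dvd_prime_iff_eq Nat.prime_two Nat.prime_three).1 (h.trans (Nat.gcd_dvd_left _ _))
    omega
  · have h5 := h.trans (Nat.gcd_dvd_right _ _)
    rw [Nat.card_eq_fintype_card] at h5
    have h6 := (ord_eq_one (q := Fintype.card F) (p := 3) (by omega)).2 h5
    omega

theorem killTwo_E6_2 (F : Type u) [Field F] [Fintype F] (h4 : Fintype.card F % 4 = 3) :
    KillTwo ↥(chevE6.group F) (Fintype.card F) 2 := by
  intro r hr hr2 _ h1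
  by_cases hr3 : r = 3
  · subst hr3
    exact not_same_two_three_E6 F h4 h1
  · exact two_E6_two F (by omega) r hr hr2 hr3 h1

/-- **`E₈`: the primes 2 and 5.** -/
theorem not_same_two_five_E8 (F : Type u) [Field F] [Fintype F] (h2 : Fintype.card F % 2 = 1)
    (h5 : ord (Fintype.card F) 5 = 4) : ¬ Same 2 5 ↥(chevE8.group F) := by
  obtain ⟨k, _, _, f, p, hpp, hkp, e, hk, hka, he0, hcF⟩ := H378.TorFin.exists_closure F
  have cs := CoxeterMatrix.E₈.toCoxeterSystem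
  have hW := finite_W e8T cs
  have hcF' : Fintype.card F = p ^ e := by rw [← Nat.card_eq_fintype_card, hcF]
  have S := setup_untw e8T cs hk f he0 hcF' invC_E8 one_ne_zero
  have h1 : (1 : ℤ) = 1 ∨ (1 : ℤ) = -1 := Or.inl rfl
  have h2p : 2 ≠ p := two_ne_of_odd he0 hcF' h2
  have h5' : orderOf ((Fintype.card F : ℤ) : ZMod 5) = 4 := by rw [cast_ord]; exact h5
  have h5Q := not_dvd_of_orderOf (by norm_num) Nat.prime_five h5'
  have hdv := dvd_cyclotomic Nat.prime_five h5Q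
  rw [h5', cyclotomic_eq _ (by decide)] at hdv
  simp only [cycL, ofL, Polynomial.eval_add, Polynomial.eval_mul, Polynomial.eval_C, Polynomial.eval_X,
      Polynomial.eval_zero] at hdv
  have hQe : ((Fintype.card F : ℕ) : ℤ) = 1 * ((p ^ e : ℕ) : ℤ) := by rw [hcF', one_mul]
  have hm : (Fintype.card F : ℤ) % 5 = 2 ∨ (Fintype.card F : ℤ) % 5 = 3 := by
    have h6 : (Fintype.card F : ℤ) % 5 = 0 ∨ (Fintype.card F : ℤ) % 5 = 1 ∨ (Fintype.card F : ℤ) % 5 = 2 ∨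
      (Fintype.card F : ℤ) % 5 = 3 ∨ (Fintype.card F : ℤ) % 5 = 4 := by omega
    have h7 : ((5 : ℕ) : ℤ) ∣ (Fintype.card F : ℤ) * Fintype.card F + 1 := by
      refine hdv.trans (dvd_of_eq ?_)
      ring
    have h8 : ((Fintype.card F : ℤ) * Fintype.card F + 1) % 5 = 0 := Int.emod_eq_zero_of_dvd h7
    rw [Int.add_emod, Int.mul_emod] at h8
    rcases h6 with h | h | h | h | h <;> rw [h] at h8 <;> simp at h8 ⊢ <;> omega
  have hd : ∀ s : ℕ, s.Prime → ¬ s ∣ Nat.gcd 1 (Nat.card F - 1) := fun s hs h =>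
    hs.one_lt.ne' (Nat.dvd_one.1 (h.trans (Nat.gcd_dvd_left _ _)))
  have h2d : ((2 : ℕ) : ℤ) ∣ (Polynomial.cyclotomic 4 ℤ).eval (Fintype.card F : ℤ) := by
    exact_mod_cast two_dvd_cyc (int_odd h2) 4 (by decide)
  intro hS
  rcases hm with hm | hm
  · exact not_same_rootCk e8T cs S h1 lists_E8 (hasTor_E8 cs 1 h1) hQe (m := 4) (by decide) dcert_E8_4
      (r := 5) (v := 1) rootCk_E8_2 (by omega) Nat.prime_five Nat.prime_two (by norm_num) (ne_char he0 hQe h5Q) h2p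
      (hd 5 Nat.prime_five) (hd 2 Nat.prime_two) h2d hS.symm
  · exact not_same_rootCk e8T cs S h1 lists_E8 (hasTor_E8 cs 1 h1) hQe (m := 4) (by decide) dcert_E8_4
      (r := 5) (v := 1) rootCk_E8_3 (by omega) Nat.prime_five Nat.prime_two (by norm_num) (ne_char he0 hQe h5Q) h2p
      (hd 5 Nat.prime_five) (hd 2 Nat.prime_two) h2d hS.symm

theorem killTwo_E8_4 (F : Type u) [Field F] [Fintype F] (h : Fintype.card F % 2 = 1) :
    KillTwo ↥(chevE8.group F) (Fintype.card F) 4 := by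
  intro r hr hr2 _ h1
  by_cases hr5 : r = 5
  · subst hr5
    exact not_same_two_five_E8 F h h1
  · exact two_E8_four F h r hr hr2 hr5 h1

end Cfsg.Agent.H755.PQ
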